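import Cfsg.Agent.H39.SmithTyrer.Defs

/-!
# The `p`-singular sections and the inner products of the characters `F ν`

The `p`-parts of the singular elements are conjugate to exactly two elements of `P`, each with a
fibre of `|G| / |P|` elements, so sums over singular elements become sums over `P`.
-/

set_option autoImplicit false

open Cfsg.Agent.H39.SmithTyrer
open scoped ComplexConjugate

namespace Cfsg.Agent.H76.SmithTyrer

universe u

variable {G : Type u} [Group G] [Fintype G] {p : ℕ}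

/-- The order of `P` is at least `p ^ 2`. -/
theorem card_P (D : Setup G p) : p ^ 2 ≤ Nat.card ↥(D.P : Subgroup G) := by
  haveI : Fact p.Prime := ⟨D.hp⟩
  obtain ⟨k, hk⟩ := IsPGroup.iff_card.1 D.P.isPGroup'
  have hk2 : 2 ≤ k := by
    by_contra h
    apply D.ncyc
    interval_cases k
    · haveI : Subsingleton ↥(D.P : Subgroup G) :=
        (Nat.card_eq_one_iff_unique.1 (by simpa using hk)).1
      exact isCyclic_of_subsingleton
    · exact isCyclic_of_prime_card (p := p) (by simpa using hk)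
  rw [hk]
  exact Nat.pow_le_pow_right D.hp.pos hk2

theorem odd_card_P (D : Setup G p) : Odd (Nat.card ↥(D.P : Subgroup G)) := by
  haveI : Fact p.Prime := ⟨D.hp⟩
  obtain ⟨k, hk⟩ := IsPGroup.iff_card.1 D.P.isPGroup'
  exact hk ▸ (D.hp.odd_of_ne_two D.odd).pow

/-- The `p`-regular elements of the centralizer of `x` make up its normal `p`-complement. -/
theorem card_regular_centralizer (D : Setup G p) {x : G} (hx : x ∈ (D.P : Subgroup G))
    (h1 : x ≠ 1) :
    Nat.card ↥(D.P : Subgroup G) *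
        Nat.card {y : ↥(Subgroup.centralizer ({x} : Set G)) // ¬ p ∣ orderOf y} =
      Nat.card ↥(Subgroup.centralizer ({x} : Set G)) := by
  haveI : Fact p.Prime := ⟨D.hp⟩
  set C := Subgroup.centralizer ({x} : Set G)
  obtain ⟨Q, N, hN, hc⟩ := D.cent x hx h1
  have hle : (D.P : Subgroup G) ≤ C := fun a ha =>
    Subgroup.mem_centralizer_singleton_iff.2 (D.comm a ha x hx)
  have hQ : Nat.card ↥(Q : Subgroup C) = Nat.card ↥(D.P : Subgroup G) := by
    rw [Q.card_eq_multiplicity, ← (D.P.subtype hle).card_eq_multiplicity]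
    exact Nat.card_congr (Subgroup.subgroupOfEquivOfLe hle).toEquiv
  have hNp : ¬ p ∣ Nat.card N := by
    rw [← hc.index_eq_card]
    exact Q.not_dvd_index
  have hreg : ∀ y : C, y ∈ N ↔ ¬ p ∣ orderOf y := by
    refine fun y => ⟨fun hy h => hNp (h.trans (N.orderOf_dvd_natCard hy)), fun hy => ?_⟩
    haveI := hN
    rw [← QuotientGroup.eq_one_iff, ← orderOf_eq_one_iff]
    have d1 : orderOf (y : C ⧸ N) ∣ orderOf y := orderOf_map_dvd (QuotientGroup.mk' N) y
    have d2 : orderOf (y : C ⧸ N) ∣ Nat.card ↥(Q : Subgroup C) := by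
      rw [← hc.symm.index_eq_card]
      exact orderOf_dvd_natCard _
    obtain ⟨k, hk⟩ := IsPGroup.iff_card.1 Q.isPGroup'
    have hco : Nat.Coprime (p ^ k) (orderOf y) :=
      Nat.Coprime.pow_left k (D.hp.coprime_iff_not_dvd.2 hy)
    exact Nat.eq_one_of_dvd_coprimes hco (hk ▸ d2) d1
  rw [← hQ, ← Nat.card_congr (Equiv.subtypeEquivRight hreg), mul_comm]
  exact hc.card_mul

/-- Each element of `P` other than `1` has `|G| / |P|` elements over it. -/
theorem card_section (D : Setup G p) {x : G} (hx : x ∈ (D.P : Subgroup G)) (h1 : x ≠ 1) :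
    Nat.card ↥(D.P : Subgroup G) * Nat.card {g : G // ∃ h : G, h * pp p g * h⁻¹ = x} =
      Nat.card G := by
  classical
  haveI : Fact p.Prime := ⟨D.hp⟩
  set C := Subgroup.centralizer ({x} : Set G)
  have hmem : ∀ y : G, y ∈ C ↔ Commute y x := fun y => Subgroup.mem_centralizer_singleton_iff
  obtain ⟨j, hj⟩ := (Nat.dvd_prime_pow D.hp).1
    ((IsPGroup.iff_card.1 D.P.isPGroup').choose_spec ▸ (D.P : Subgroup G).orderOf_dvd_natCard hx)
  -- the fibre over `x`
  have hfib : {g : G // pp p g = x} ≃ {y : C // ¬ p ∣ orderOf y} :=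
    { toFun := fun g => ⟨⟨x⁻¹ * g.1, by
          obtain ⟨y, h1', h2, -, -⟩ := pp_spec (p := p) g.1
          rw [g.2] at h1' h2
          rw [← h1', inv_mul_cancel_left]
          exact (hmem y).2 h2.symm⟩, by
          obtain ⟨y, h1', -, -, h4⟩ := pp_spec (p := p) g.1
          rw [g.2] at h1'
          rw [← Subgroup.orderOf_coe]
          simpa [← h1'] using h4⟩
      invFun := fun y => ⟨x * (y.1 : G), pp_eq (H40.isPPart_mul ((hmem _).1 y.1.2).symm hj.2
        (by rw [Subgroup.orderOf_coe]; exact y.2))⟩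
      left_inv := fun g => Subtype.ext (by simp)
      right_inv := fun y => Subtype.ext (Subtype.ext (by simp)) }
  -- count the pairs `(g, h)` with `h` moving the `p`-part of `g` to `x`
  have hA : ∀ h : G, Nat.card {g : G // h * pp p g * h⁻¹ = x} =
      Nat.card {g : G // pp p g = x} := fun h =>
    Nat.card_congr ((MulAut.conj h).toEquiv.subtypeEquiv fun g => by
      show _ ↔ pp p (h * g * h⁻¹) = x
      rw [pp_conj])
  have hB : ∀ g : {g : G // ∃ h : G, h * pp p g * h⁻¹ = x},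
      Nat.card {h : G // h * pp p g.1 * h⁻¹ = x} = Nat.card C := by
    rintro ⟨g, h₀, e⟩
    exact Nat.card_congr ((Equiv.mulRight h₀⁻¹).subtypeEquiv fun h => by
      rw [hmem]
      show h * pp p g * h⁻¹ = x ↔ h * h₀⁻¹ * x = x * (h * h₀⁻¹)
      have e2 : h * h₀⁻¹ * x = h * pp p g * h⁻¹ * (h * h₀⁻¹) := by rw [← e]; group
      rw [e2, mul_left_inj])
  let e : {gh : G × G // gh.1 * pp p gh.2 * gh.1⁻¹ = x} ≃
      Σ g : {g : G // ∃ h : G, h * pp p g * h⁻¹ = x}, {h : G // h * pp p g.1 * h⁻¹ = x} :=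
    { toFun := fun q => ⟨⟨q.1.2, q.1.1, q.2⟩, ⟨q.1.1, q.2⟩⟩
      invFun := fun q => ⟨(q.2.1, q.1.1), q.2.2⟩
      left_inv := fun _ => rfl
      right_inv := fun _ => rfl }
  let e' : {gh : G × G // gh.1 * pp p gh.2 * gh.1⁻¹ = x} ≃
      Σ h : G, {g : G // h * pp p g * h⁻¹ = x} :=
    Equiv.subtypeProdEquivSigmaSubtype fun h g => h * pp p g * h⁻¹ = x
  have hp' := (Nat.card_congr e).symm.trans (Nat.card_congr e')
  rw [Nat.card_sigma, Nat.card_sigma, Finset.sum_congr rfl fun g _ => hB g,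
    Finset.sum_congr rfl fun h _ => hA h, Finset.sum_const, Finset.sum_const,
    Finset.card_univ, Finset.card_univ, ← Nat.card_eq_fintype_card, ← Nat.card_eq_fintype_card,
    smul_eq_mul, smul_eq_mul, Nat.card_congr hfib] at hp'
  have hC : 0 < Nat.card C := Nat.card_pos
  have hcr := card_regular_centralizer D hx h1
  apply Nat.eq_of_mul_eq_mul_right hC
  rw [mul_assoc, hp', mul_left_comm, hcr]

open scoped Classical in
/-- Sums over singular elements are sums over `P`. -/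
theorem sum_singular (D : Setup G p) (f : ↥(D.P : Subgroup G) → ℂ) (hf : D.IsEven f) :
    (2 * Nat.card ↥(D.P : Subgroup G) : ℂ) * ∑ g : G, D.ext f g =
      (Nat.card G : ℂ) * ∑ x ∈ Finset.univ.erase 1, f x := by
  haveI : Fact p.Prime := ⟨D.hp⟩
  set n : ℂ := (Nat.card ↥(D.P : Subgroup G) : ℂ)
  let R : G → ↥(D.P : Subgroup G) → Prop := fun g x => ∃ h : G, h * pp p g * h⁻¹ = (x : G)
  have key : ∀ g : G, 2 * D.ext f g =
      ∑ x ∈ Finset.univ.erase 1, if R g x then f x else 0 := by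
    intro g
    unfold Setup.ext
    by_cases hg : pp p g = 1
    · rw [if_pos hg, mul_zero]
      refine (Finset.sum_eq_zero fun x hx => if_neg ?_).symm
      rintro ⟨h, e⟩
      exact (Finset.mem_erase.1 hx).1 (Subtype.ext (by rw [← e, hg]; simp))
    · rw [if_neg hg, ← Finset.sum_filter]
      have hr : D.rep g ≠ 1 := fun h => hg ((D.rep_eq_one_iff g).1 h)
      have hne : D.rep g ≠ (D.rep g)⁻¹ := by
        intro h
        apply hr
        rw [← orderOf_eq_one_iff]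
        refine Nat.eq_one_of_dvd_coprimes (odd_card_P D).coprime_two_left
          ?_ (orderOf_dvd_natCard _)
        exact orderOf_dvd_of_pow_eq_one (by rw [pow_two]; nth_rw 1 [h]; exact inv_mul_cancel _)
      have hs : (Finset.univ.erase 1).filter (R g) = {D.rep g, (D.rep g)⁻¹} := by
        ext x
        simp only [Finset.mem_filter, Finset.mem_erase, Finset.mem_univ, and_true,
          Finset.mem_insert, Finset.mem_singleton]
        constructor
        · rintro ⟨-, h, e⟩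
          rcases D.rep_of_conj x e with e' | e' <;> rw [e']
          · exact Or.inl rfl
          · exact Or.inr (inv_inv x).symm
        · set k := (D.exists_conj_pp g).choose
          rintro (rfl | rfl)
          · exact ⟨hr, k, rfl⟩
          · refine ⟨by simpa using hr, D.t * k, ?_⟩
            rw [InvMemClass.coe_inv, ← D.inv _ (D.rep g).2]
            show _ = D.t * (k * pp p g * k⁻¹) * D.t⁻¹
            group
      rw [hs, Finset.sum_pair hne, hf]
      ring
  have hswap : 2 * ∑ g : G, D.ext f g =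
      ∑ x ∈ Finset.univ.erase 1, (Nat.card {g : G // R g x} : ℂ) * f x := by
    rw [Finset.mul_sum, Finset.sum_congr rfl fun g _ => key g, Finset.sum_comm]
    refine Finset.sum_congr rfl fun x _ => ?_
    rw [← Finset.sum_filter, Finset.sum_const, nsmul_eq_mul, Nat.card_eq_fintype_card,
      Fintype.card_subtype]
  rw [mul_comm (2 : ℂ), mul_assoc, hswap, Finset.mul_sum, Finset.mul_sum]
  refine Finset.sum_congr rfl fun x hx => ?_
  rw [← mul_assoc]
  congr 1
  show ((Nat.card ↥(D.P : Subgroup G) : ℕ) : ℂ) * (Nat.card {g : G // R g x} : ℂ) = _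
  rw [← Nat.cast_mul]
  exact congrArg Nat.cast (card_section D x.2
    fun h => (Finset.mem_erase.1 hx).1 (Subtype.ext h))

theorem conj_hom (D : Setup G p) (ν : ↥(D.P : Subgroup G) →* ℂˣ) (x : ↥(D.P : Subgroup G)) :
    conj (ν x : ℂ) = (ν x⁻¹ : ℂ) := by
  have h : (ν x : ℂ) ^ Nat.card ↥(D.P : Subgroup G) = 1 := by
    rw [← Units.val_pow_eq_pow_val, ← map_pow, pow_card_eq_one', map_one, Units.val_one]
  rw [map_inv, Units.val_inv_eq_inv_val,
    Complex.inv_eq_conj (Complex.norm_eq_one_of_pow_eq_one h Nat.card_pos.ne')]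

theorem conj_twoSub (D : Setup G p) (ν : ↥(D.P : Subgroup G) →* ℂˣ) (x : ↥(D.P : Subgroup G)) :
    conj (D.twoSub ν x) = D.twoSub ν x := by
  unfold Setup.twoSub
  rw [map_sub, map_sub, conj_hom, conj_hom, inv_inv, map_ofNat]
  ring

theorem twoSub_one (D : Setup G p) (ν : ↥(D.P : Subgroup G) →* ℂˣ) : D.twoSub ν 1 = 0 := by
  simp [Setup.twoSub]
  norm_num

theorem hom_inv_ne (D : Setup G p) {ν : ↥(D.P : Subgroup G) →* ℂˣ} (hν : ν ≠ 1)
    (h : ∀ x, ν x * ν x = 1) : False := by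
  apply hν
  ext x
  have hx : ν x ^ Nat.card ↥(D.P : Subgroup G) = 1 := by rw [← map_pow, pow_card_eq_one', map_one]
  obtain ⟨m, hm⟩ := odd_card_P D
  rw [hm, pow_succ, pow_mul, pow_two, h, one_pow, one_mul] at hx
  rw [hx, MonoidHom.one_apply]

open scoped Classical in
/-- The sum of a linear character of `P` that is not trivial vanishes. -/
theorem sum_hom (D : Setup G p) (c : ↥(D.P : Subgroup G) → ℂˣ)
    (hmul : ∀ a b, c (a * b) = c a * c b) (hne : ∃ a, c a ≠ 1) :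
    ∑ x, (c x : ℂ) = 0 := by
  obtain ⟨a, ha⟩ := hne
  have h : (c a : ℂ) * ∑ x, (c x : ℂ) = ∑ x, (c x : ℂ) := by
    rw [Finset.mul_sum]
    exact Fintype.sum_equiv (Equiv.mulLeft a) _ _ fun x => by simp [hmul]
  by_contra h0
  exact ha (Units.ext (mul_eq_right₀ h0 |>.1 h))

open scoped Classical in
theorem sum_twoSub (D : Setup G p) {ν : ↥(D.P : Subgroup G) →* ℂˣ} (hν : ν ≠ 1) :
    ∑ x, D.twoSub ν x = 2 * (Nat.card ↥(D.P : Subgroup G) : ℂ) := by
  have h0 : ∑ x, (ν x : ℂ) = 0 := sum_hom D ν (map_mul ν) (by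
    by_contra! h; exact hν (MonoidHom.ext h))
  have h1 : ∑ x, (ν x⁻¹ : ℂ) = 0 := by
    rw [← h0]; exact Fintype.sum_equiv (Equiv.inv _) _ _ fun _ => rfl
  simp only [Setup.twoSub, Finset.sum_sub_distrib, h0, h1, Finset.sum_const, Finset.card_univ,
    Nat.card_eq_fintype_card, nsmul_eq_mul]
  ring

open scoped Classical in
theorem sum_twoSub_mul (D : Setup G p) {ν μ : ↥(D.P : Subgroup G) →* ℂˣ} (hν : ν ≠ 1)
    (hμ : μ ≠ 1) :
    ∑ x, D.twoSub ν x * D.twoSub μ x = 4 * (Nat.card ↥(D.P : Subgroup G) : ℂ)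
      + 2 * ∑ x, ((ν x * μ x : ℂˣ) : ℂ) + 2 * ∑ x, ((ν x * μ x⁻¹ : ℂˣ) : ℂ) := by
  have z : ∀ ρ : ↥(D.P : Subgroup G) →* ℂˣ, ρ ≠ 1 → ∑ x, (ρ x : ℂ) = 0 := fun ρ h =>
    sum_hom D ρ (map_mul ρ) (by by_contra! h'; exact h (MonoidHom.ext h'))
  have hinv : ∀ F : ↥(D.P : Subgroup G) → ℂ, ∑ x, F x⁻¹ = ∑ x, F x := fun F =>
    Fintype.sum_equiv (Equiv.inv _) _ _ fun _ => rfl
  have e1 : ∑ x, ((ν x⁻¹ : ℂ) * (μ x⁻¹ : ℂ)) = ∑ x, (ν x : ℂ) * (μ x : ℂ) :=
    hinv fun x => (ν x : ℂ) * (μ x : ℂ)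
  have e2 : ∑ x, ((ν x⁻¹ : ℂ) * (μ x : ℂ)) = ∑ x, (ν x : ℂ) * (μ x⁻¹ : ℂ) := by
    simpa using hinv fun x => (ν x : ℂ) * (μ x⁻¹ : ℂ)
  have e3 : ∑ x, (ν x⁻¹ : ℂ) = 0 := (hinv fun x => (ν x : ℂ)).trans (z ν hν)
  have e4 : ∑ x, (μ x⁻¹ : ℂ) = 0 := (hinv fun x => (μ x : ℂ)).trans (z μ hμ)
  have e : ∀ x, D.twoSub ν x * D.twoSub μ x = 4 - 2 * (ν x : ℂ) - 2 * (ν x⁻¹ : ℂ)
      - 2 * (μ x : ℂ) - 2 * (μ x⁻¹ : ℂ) + (ν x : ℂ) * (μ x : ℂ) + (ν x⁻¹ : ℂ) * (μ x⁻¹ : ℂ)
      + (ν x : ℂ) * (μ x⁻¹ : ℂ) + (ν x⁻¹ : ℂ) * (μ x : ℂ) := fun x => by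
    simp only [Setup.twoSub]; ring
  simp only [e, Units.val_mul, Finset.sum_add_distrib, Finset.sum_sub_distrib, ← Finset.mul_sum,
    e1, e2, e3, e4, z ν hν, z μ hμ, Finset.sum_const, Finset.card_univ,
    Nat.card_eq_fintype_card, nsmul_eq_mul]
  ring

open scoped Classical in
theorem inner_eq (D : Setup G p) (f : ↥(D.P : Subgroup G) → ℂ) (hf : D.IsEven f) (h1 : f 1 = 0)
    (φ ψ : G → ℂ) (he : ∀ g, φ g * conj (ψ g) = D.ext f g) (c : ℂ)
    (hs : ∑ x, f x = 2 * (Nat.card ↥(D.P : Subgroup G) : ℂ) * c) :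
    Cfsg.classInner φ ψ = c := by
  have hsum := sum_singular D f hf
  rw [Finset.sum_erase _ h1, hs] at hsum
  have hn : (2 : ℂ) * (Nat.card ↥(D.P : Subgroup G) : ℂ) ≠ 0 :=
    mul_ne_zero two_ne_zero (Nat.cast_ne_zero.2 Nat.card_pos.ne')
  have hG : (Nat.card G : ℂ) ≠ 0 := Nat.cast_ne_zero.2 Nat.card_pos.ne'
  have hval : ∑ g, D.ext f g = (Nat.card G : ℂ) * c :=
    mul_left_cancel₀ hn (by rw [hsum]; ring)
  unfold Cfsg.classInner
  rw [Finset.sum_congr rfl fun g _ => he g, hval, inv_mul_cancel_left₀ hG]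

theorem F_inner_one (D : Setup G p) (ν : ↥(D.P : Subgroup G) →* ℂˣ) (hν : ν ≠ 1) :
    Cfsg.classInner (D.F ν) (fun _ => 1) = 1 := by
  classical
  refine inner_eq D (D.twoSub ν) (D.twoSub_isEven ν) (twoSub_one D ν) _ _
    (fun g => by simp [Setup.F]) 1 ?_
  rw [sum_twoSub D hν, mul_one]

theorem F_mul_conj (D : Setup G p) (ν μ : ↥(D.P : Subgroup G) →* ℂˣ) (g : G) :
    D.F ν g * conj (D.F μ g) = D.ext (fun x => D.twoSub ν x * D.twoSub μ x) g := by
  unfold Setup.F Setup.ext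
  split_ifs
  · simp
  · rw [conj_twoSub]

theorem twoSub_mul_isEven (D : Setup G p) (ν μ : ↥(D.P : Subgroup G) →* ℂˣ) :
    D.IsEven (fun x => D.twoSub ν x * D.twoSub μ x) := fun x => by
  show _ * _ = _ * _
  rw [D.twoSub_isEven ν x, D.twoSub_isEven μ x]

theorem F_inner_self (D : Setup G p) (ν : ↥(D.P : Subgroup G) →* ℂˣ) (hν : ν ≠ 1) :
    Cfsg.classInner (D.F ν) (D.F ν) = 3 := by
  classical
  refine inner_eq D _ (twoSub_mul_isEven D ν ν) (by simp [twoSub_one D ν]) _ _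
    (F_mul_conj D ν ν) 3 ?_
  have h2 : ∑ x, ((ν x * ν x : ℂˣ) : ℂ) = 0 :=
    sum_hom D (fun x => ν x * ν x) (fun a b => by simp only [map_mul]; exact mul_mul_mul_comm _ _ _ _)
      (by by_contra! h; exact hom_inv_ne D hν h)
  rw [sum_twoSub_mul D hν hν, h2]
  simp [Finset.sum_const, Nat.card_eq_fintype_card]
  ring

theorem F_inner (D : Setup G p) (ν μ : ↥(D.P : Subgroup G) →* ℂˣ) (hν : ν ≠ 1) (hμ : μ ≠ 1)
    (h1 : μ ≠ ν) (h2 : μ ≠ ν⁻¹) : Cfsg.classInner (D.F ν) (D.F μ) = 2 := by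
  classical
  refine inner_eq D _ (twoSub_mul_isEven D ν μ) (by simp [twoSub_one D ν]) _ _
    (F_mul_conj D ν μ) 2 ?_
  have ha : ∑ x, ((ν x * μ x : ℂˣ) : ℂ) = 0 :=
    sum_hom D (fun x => ν x * μ x) (fun a b => by simp only [map_mul]; exact mul_mul_mul_comm _ _ _ _)
      (by
        by_contra! h
        exact h2 (MonoidHom.ext fun x => by
          rw [MonoidHom.inv_apply]; exact (inv_eq_of_mul_eq_one_right (h x)).symm))
  have hb : ∑ x, ((ν x * μ x⁻¹ : ℂˣ) : ℂ) = 0 :=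
    sum_hom D (fun x => ν x * μ x⁻¹)
      (fun a b => by simp only [map_mul, map_inv, mul_inv]; exact mul_mul_mul_comm _ _ _ _)
      (by
        by_contra! h
        exact h1 (MonoidHom.ext fun x => by
          have := h x
          rw [map_inv] at this
          exact (mul_inv_eq_one.1 this).symm))
  rw [sum_twoSub_mul D hν hμ, ha, hb]
  ring

end Cfsg.Agent.H76.SmithTyrer
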